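import Cfsg.Agent.TitsCover.Basic
import Cfsg.Agent.TitsCover.Data0

/-!
The certificate for the word [0, 1], one vector at a time to bound the memory of the checker.
-/

set_option autoImplicit false
set_option Elab.async false

namespace CfsgLib.TitsCover

theorem agree0_0 : agree size [2 ^ 48] (nodeP [0, 1]) (pairP wA0 wB0) = true := by
  decide +kernel

theorem agree0_1 : agree size [2 ^ 51] (nodeP [0, 1]) (pairP wA0 wB0) = true := by
  decide +kernel

theorem agree0_2 : agree size [17] (nodeP [0, 1]) (pairP wA0 wB0) = true := by
  decide +kernel

theorem agree0_3 : agree size [32785] (nodeP [0, 1]) (pairP wA0 wB0) = true := by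
  decide +kernel

theorem gens0 : (inGens wA0 && inGens wB0) = true := by decide +kernel

theorem check0 : certified [0, 1] wA0 wB0 = true :=
  certified_of agree0_0 agree0_1 agree0_2 agree0_3 gens0

end CfsgLib.TitsCover
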