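import Cfsg.Agent.TitsCover.Basic
import Cfsg.Agent.TitsCover.Data2

/-!
The certificate for the word [0, 1, 0], one vector at a time to bound the memory of the checker.
-/

set_option autoImplicit false
set_option Elab.async false

namespace CfsgLib.TitsCover

theorem agree2_0 : agree size [2 ^ 48] (nodeP [0, 1, 0]) (pairP wA2 wB2) = true := by
  decide +kernel

theorem agree2_1 : agree size [2 ^ 51] (nodeP [0, 1, 0]) (pairP wA2 wB2) = true := by
  decide +kernel

theorem agree2_2 : agree size [17] (nodeP [0, 1, 0]) (pairP wA2 wB2) = true := by
  decide +kernel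

theorem agree2_3 : agree size [32785] (nodeP [0, 1, 0]) (pairP wA2 wB2) = true := by
  decide +kernel

theorem gens2 : (inGens wA2 && inGens wB2) = true := by decide +kernel

theorem check2 : certified [0, 1, 0] wA2 wB2 = true :=
  certified_of agree2_0 agree2_1 agree2_2 agree2_3 gens2

end CfsgLib.TitsCover
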