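import Cfsg.Agent.TitsCover.Basic
import Cfsg.Agent.TitsCover.Data4

/-!
The certificate for the word [1, 0, 1, 0], one vector at a time to bound the memory of the checker.
-/

set_option autoImplicit false
set_option Elab.async false

namespace CfsgLib.TitsCover

theorem agree4_0 : agree size [2 ^ 48] (nodeP [1, 0, 1, 0]) (pairP wA4 wB4) = true := by
  decide +kernel

theorem agree4_1 : agree size [2 ^ 51] (nodeP [1, 0, 1, 0]) (pairP wA4 wB4) = true := by
  decide +kernel

theorem agree4_2 : agree size [17] (nodeP [1, 0, 1, 0]) (pairP wA4 wB4) = true := by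
  decide +kernel

theorem agree4_3 : agree size [32785] (nodeP [1, 0, 1, 0]) (pairP wA4 wB4) = true := by
  decide +kernel

theorem gens4 : (inGens wA4 && inGens wB4) = true := by decide +kernel

theorem check4 : certified [1, 0, 1, 0] wA4 wB4 = true :=
  certified_of agree4_0 agree4_1 agree4_2 agree4_3 gens4

end CfsgLib.TitsCover
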