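import Cfsg.Agent.TitsCover.Basic
import Cfsg.Agent.TitsCover.Data6

/-!
The certificate for the word [0, 1, 0, 1, 0, 1], one vector at a time to bound the memory of the checker.
-/

set_option autoImplicit false
set_option Elab.async false

namespace CfsgLib.TitsCover

theorem agree6_0 : agree size [2 ^ 48] (nodeP [0, 1, 0, 1, 0, 1]) (pairP wA6 wB6) = true := by
  decide +kernel

theorem agree6_1 : agree size [2 ^ 51] (nodeP [0, 1, 0, 1, 0, 1]) (pairP wA6 wB6) = true := by
  decide +kernel

theorem agree6_2 : agree size [17] (nodeP [0, 1, 0, 1, 0, 1]) (pairP wA6 wB6) = true := by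
  decide +kernel

theorem agree6_3 : agree size [32785] (nodeP [0, 1, 0, 1, 0, 1]) (pairP wA6 wB6) = true := by
  decide +kernel

theorem gens6 : (inGens wA6 && inGens wB6) = true := by decide +kernel

theorem check6 : certified [0, 1, 0, 1, 0, 1] wA6 wB6 = true :=
  certified_of agree6_0 agree6_1 agree6_2 agree6_3 gens6

end CfsgLib.TitsCover
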