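import Cfsg.Agent.TitsInvolutions.Model
import Cfsg.Agent.TitsCover.Table

/-!
The action of all root elements of `F₄` with parameter one on bit vectors, and the same action on many
vectors at once, one bit plane for each coordinate, each root applied to a selection of the vectors.
-/

set_option autoImplicit false

namespace CfsgLib.TitsCover

open Cfsg.Lie CfsgLib.Chevalley CfsgLib.TitsInvolutions
open scoped Matrix

local notation "S" => sysF4

/-- Apply one root to a bit vector. -/
def apR (r v : ℕ) : ℕ :=
  (tb.getD r []).foldl (fun acc e => if v.testBit e.1 then acc ^^^ 2 ^ e.2 else acc) v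

/-- Apply a word to a bit vector. -/
def apW (w : List ℕ) (v : ℕ) : ℕ := w.foldr apR v

/-- Valid words. -/
abbrev Low (w : List ℕ) : Prop := ∀ r ∈ w, r < 48

theorem tb_ok : ∀ r < 48, ∀ c < 52,
    apR r (2 ^ c) = mask (evalCol chevF4 [(r, [(1, 0, 0)])] c) := by decide +kernel

theorem tb_bound : (List.range 48).all (fun r => (tb.getD r []).all fun e =>
    decide (e.1 < 52) && decide (e.2 < 52)) = true := by decide +kernel

theorem entry_bound {r : ℕ} {e : ℕ × ℕ} (he : e ∈ tb.getD r []) : e.1 < 52 ∧ e.2 < 52 := by
  by_cases hr : r < 48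
  · have h := tb_bound
    rw [List.all_eq_true] at h
    have h' := h r (List.mem_range.2 hr)
    rw [List.all_eq_true] at h'
    simpa using h' e he
  · have hlen : tb.length = 48 := by decide +kernel
    rw [List.getD_eq_default _ _ (by omega)] at he
    simp at he

theorem apR_lt {r v : ℕ} (hv : v < 2 ^ 52) : apR r v < 2 ^ 52 := by
  have key : ∀ (L : List (ℕ × ℕ)) (acc : ℕ), (∀ e ∈ L, e.2 < 52) → acc < 2 ^ 52 →
      L.foldl (fun acc e => if v.testBit e.1 then acc ^^^ 2 ^ e.2 else acc) acc < 2 ^ 52 := by
    intro L
    induction L with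
    | nil => intro acc _ h; simpa using h
    | cons e L ih =>
      intro acc hL hacc
      refine ih _ (fun x hx => hL x (List.mem_cons_of_mem _ hx)) ?_
      dsimp only
      split
      · exact Nat.xor_lt_two_pow hacc (Nat.pow_lt_pow_right (by norm_num) (hL e (List.mem_cons_self ..)))
      · exact hacc
  exact key _ v (fun e he => (entry_bound he).2) hv

theorem apW_lt {w : List ℕ} {v : ℕ} (hv : v < 2 ^ 52) : apW w v < 2 ^ 52 := by
  induction w with
  | nil => simpa [apW] using hv
  | cons r w ih => exact apR_lt ih

theorem apW_append (a b : List ℕ) (v : ℕ) : apW (a ++ b) v = apW a (apW b v) := List.foldr_append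

theorem apR_xor (r a b : ℕ) : apR r (a ^^^ b) = apR r a ^^^ apR r b := by
  have key : ∀ (L : List (ℕ × ℕ)) (x y : ℕ),
      L.foldl (fun acc e => if (a ^^^ b).testBit e.1 then acc ^^^ 2 ^ e.2 else acc) (x ^^^ y) =
        L.foldl (fun acc e => if a.testBit e.1 then acc ^^^ 2 ^ e.2 else acc) x ^^^
          L.foldl (fun acc e => if b.testBit e.1 then acc ^^^ 2 ^ e.2 else acc) y := by
    intro L
    induction L with
    | nil => intro x y; rfl
    | cons e L ih =>
      intro x y
      simp only [List.foldl_cons]
      rw [← ih]
      congr 1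
      rw [Nat.testBit_xor]
      cases a.testBit e.1 <;> cases b.testBit e.1 <;>
        simp [Nat.xor_assoc, Nat.xor_comm, Nat.xor_left_comm]
  exact key _ a b

theorem apR_zero (r : ℕ) : apR r 0 = 0 := by
  have key : ∀ (L : List (ℕ × ℕ)),
      L.foldl (fun acc e => if (0 : ℕ).testBit e.1 then acc ^^^ 2 ^ e.2 else acc) 0 = 0 := by
    intro L
    induction L with
    | nil => rfl
    | cons e L ih => simpa using ih
  exact key _

section

variable (K : Type*) [Field K] [CharP K 2]

theorem mulVec_col {r : ℕ} (hr : r < 48) {c : ℕ} (hc : c < 52) :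
    (Sys.xG S K r (1 : K) : Matrix chevF4.Idx chevF4.Idx K) *ᵥ bv chevF4 K c =
      vecOf K (apR r (2 ^ c)) := by
  rw [tb_ok r hr c hc, ← vev_mask, ← vev_evalCol (Sys.wf S) (1 : K) 1 [(r, [(1, 0, 0)])]
    (fun e he => by rw [List.mem_singleton.1 he]; exact hr)]
  congr 1
  simp [ChevalleyDatum.wordMat, Sys.xG_val, pev]

theorem mulVec_apR {r : ℕ} (hr : r < 48) : ∀ v, v < 2 ^ 52 →
    (Sys.xG S K r (1 : K) : Matrix chevF4.Idx chevF4.Idx K) *ᵥ vecOf K v = vecOf K (apR r v) := by
  suffices h : ∀ n, n ≤ 52 → ∀ v, v < 2 ^ n →
      (Sys.xG S K r (1 : K) : Matrix chevF4.Idx chevF4.Idx K) *ᵥ vecOf K v = vecOf K (apR r v) from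
    fun v hv => h 52 le_rfl v hv
  intro n
  induction n with
  | zero =>
    intro _ v hv
    obtain rfl : v = 0 := by simpa using hv
    rw [apR_zero, vecOf_zero, Matrix.mulVec_zero]
  | succ n ih =>
    intro hn v hv
    by_cases hb : v < 2 ^ n
    · exact ih (by omega) v hb
    · have hlt : v ^^^ 2 ^ n < 2 ^ n := by
        refine Nat.lt_pow_two_of_testBit _ fun i hi => ?_
        rw [Nat.testBit_xor, Nat.testBit_two_pow]
        rcases eq_or_lt_of_le hi with rfl | hi'
        · simp [Nat.testBit_of_two_pow_le_and_two_pow_add_one_gt (not_lt.1 hb) hv]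
        · rw [Nat.testBit_lt_two_pow (hv.trans_le (Nat.pow_le_pow_right two_pos hi'))]
          simp [hi'.ne]
      have e : v = (v ^^^ 2 ^ n) ^^^ 2 ^ n := by simp [Nat.xor_assoc]
      have hlow := ih (by omega) _ hlt
      generalize v ^^^ 2 ^ n = w at e hlow
      subst e
      rw [apR_xor, vecOf_xor, vecOf_xor, Matrix.mulVec_add, hlow, vecOf_two_pow,
        mulVec_col K hr (show n < 52 by omega)]

theorem mulVec_apW {w : List ℕ} (hw : Low w) {v : ℕ} (hv : v < 2 ^ 52) :
    (el K w : Matrix chevF4.Idx chevF4.Idx K) *ᵥ vecOf K v = vecOf K (apW w v) := by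
  induction w with
  | nil => simp [el_nil, apW]
  | cons r w ih =>
    have hw' : Low w := fun x hx => hw x (List.mem_cons_of_mem _ hx)
    rw [el_cons, Units.val_mul, ← Matrix.mulVec_mulVec, ih hw',
      mulVec_apR K (hw r (List.mem_cons_self ..)) _ (apW_lt hv)]
    rfl

end

/-! ### Bit planes -/

/-- A selection for each of several words. -/
abbrev Prog : Type := List (List ℕ × ℕ)

/-- Apply one root to the selected vectors. -/
def step (N r m P : ℕ) : ℕ :=
  (tb.getD r []).foldl (fun acc e => acc ^^^ (((P >>> (e.1 * N)) &&& m) <<< (e.2 * N))) P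

/-- Apply a word to the selected vectors. -/
def stepW (N : ℕ) (w : List ℕ) (m P : ℕ) : ℕ := w.foldr (fun r Q => step N r m Q) P

/-- Apply a program. -/
def run (N : ℕ) (p : Prog) (P : ℕ) : ℕ := p.foldr (fun e Q => stepW N e.1 e.2 Q) P

/-- The word selected at a position. -/
def sel (p : Prog) (j : ℕ) : List ℕ := p.flatMap fun e => if e.2.testBit j then e.1 else []

/-- All masks fit. -/
def fits (N : ℕ) (p : Prog) : Bool := p.all fun e => decide (e.2 < 2 ^ N)

/-- The program of inverses. -/
def inv (p : Prog) : Prog := p.reverse.map fun e => (e.1.reverse, e.2)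

theorem sel_append (p q : Prog) (j : ℕ) : sel (p ++ q) j = sel p j ++ sel q j :=
  List.flatMap_append

theorem sel_inv (p : Prog) (j : ℕ) : sel (inv p) j = (sel p j).reverse := by
  induction p with
  | nil => rfl
  | cons e p ih =>
    rw [inv, List.reverse_cons, List.map_append, sel_append, ← inv, ih]
    simp only [sel, List.map_cons, List.map_nil, List.flatMap_cons, List.flatMap_nil, List.append_nil,
      List.reverse_append]
    congr 1
    split <;> simp

/-- The vector at a position. -/
def Slice (N P j v : ℕ) : Prop := ∀ t < 52, P.testBit (t * N + j) = v.testBit t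

theorem slice_step {N P j v r m : ℕ} (hj : j < N) (hm : m < 2 ^ N) (h : Slice N P j v) :
    Slice N (step N r m P) j (if m.testBit j then apR r v else v) := by
  have key : ∀ (L : List (ℕ × ℕ)) (A a : ℕ), (∀ e ∈ L, e.1 < 52 ∧ e.2 < 52) → Slice N A j a →
      Slice N (L.foldl (fun acc e => acc ^^^ (((P >>> (e.1 * N)) &&& m) <<< (e.2 * N))) A) j
        (if m.testBit j then
          L.foldl (fun acc e => if v.testBit e.1 then acc ^^^ 2 ^ e.2 else acc) a else a) := by
    intro L
    induction L with
    | nil => intro A a _ hA; simpa using hA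
    | cons e L ih =>
      intro A a hL hA
      obtain ⟨h1, h2⟩ := hL e (List.mem_cons_self ..)
      have hbit : ∀ t < 52, ((((P >>> (e.1 * N)) &&& m) <<< (e.2 * N)).testBit (t * N + j)) =
          (decide (t = e.2) && (v.testBit e.1 && m.testBit j)) := by
        intro t _
        rw [Nat.testBit_shiftLeft, Nat.testBit_and, Nat.testBit_shiftRight]
        by_cases ht : t = e.2
        · subst ht
          rw [Nat.add_sub_cancel_left, h e.1 h1]
          simp
        · simp only [ht, decide_false, Bool.false_and]
          by_cases hle : e.2 * N ≤ t * N + j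
          · have hlt : e.2 < t := by
              by_contra hc
              have : t + 1 ≤ e.2 := by omega
              have := Nat.mul_le_mul_right N this
              rw [Nat.add_mul, one_mul] at this
              omega
            have hge : N ≤ t * N + j - e.2 * N := by
              have := Nat.mul_le_mul_right N (Nat.succ_le_of_lt hlt)
              rw [Nat.succ_mul] at this
              omega
            rw [Nat.testBit_lt_two_pow (x := m) (hm.trans_le (Nat.pow_le_pow_right two_pos hge))]
            simp
          · simp [hle]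
      have hnext : Slice N (A ^^^ (((P >>> (e.1 * N)) &&& m) <<< (e.2 * N))) j
          (if m.testBit j then (if v.testBit e.1 then a ^^^ 2 ^ e.2 else a) else a) := by
        intro t ht
        rw [Nat.testBit_xor, hA t ht, hbit t ht]
        cases hmj : m.testBit j <;> cases hve : v.testBit e.1 <;>
          simp [Nat.testBit_xor, Nat.testBit_two_pow, eq_comm]
      have := ih _ _ (fun x hx => hL x (List.mem_cons_of_mem _ hx)) hnext
      cases hmj : m.testBit j <;> simp [hmj] at this ⊢ <;> exact this
  exact key _ P v (fun e he => entry_bound he) h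

theorem slice_stepW {N j m : ℕ} (hj : j < N) (hm : m < 2 ^ N) (w : List ℕ) {P v : ℕ}
    (h : Slice N P j v) : Slice N (stepW N w m P) j (if m.testBit j then apW w v else v) := by
  induction w with
  | nil => simpa [stepW, apW] using h
  | cons r w ih =>
    have := slice_step (r := r) hj hm ih
    cases hmj : m.testBit j <;> simp [hmj, stepW, apW] at this ⊢ <;> exact this

theorem slice_run {N j : ℕ} (hj : j < N) : ∀ (p : Prog), fits N p = true → ∀ {P v : ℕ},
    Slice N P j v → Slice N (run N p P) j (apW (sel p j) v)
  | [], _, _, _, h => h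
  | e :: p, hf, P, v, h => by
    simp only [fits, List.all_cons, Bool.and_eq_true, decide_eq_true_eq] at hf
    have hw := slice_stepW hj hf.1 e.1 (slice_run hj p hf.2 h)
    simp only [sel, List.flatMap_cons, apW_append]
    cases hmj : e.2.testBit j <;> simp [hmj] at hw ⊢ <;> exact hw

/-- The same vector at all positions. -/
def start (N v : ℕ) : ℕ → ℕ
  | 0 => 0
  | t + 1 => start N v t ||| (if v.testBit t then (2 ^ N - 1) <<< (t * N) else 0)

theorem slice_start {N j v : ℕ} (hj : j < N) : Slice N (start N v 52) j v := by
  suffices h : ∀ n t, (start N v n).testBit (t * N + j) = (decide (t < n) && v.testBit t) by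
    intro t ht
    simp [h 52 t, ht]
  intro n
  induction n with
  | zero => intro t; simp [start]
  | succ n ih =>
    intro t
    rw [start, Nat.testBit_or, ih t]
    cases hv : v.testBit n
    · by_cases htn : t = n
      · subst htn; simp [hv]
      · by_cases htl : t < n
        · simp [htl, htl.trans (Nat.lt_succ_self n)]
        · simp [htl, show ¬ t < n + 1 by omega]
    · rw [if_pos rfl, Nat.testBit_shiftLeft, Nat.testBit_two_pow_sub_one]
      by_cases htn : t = n
      · subst htn; simp [hv, hj]
      · by_cases htl : t < n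
        · have : ¬ (n * N ≤ t * N + j) := by
            have := Nat.mul_le_mul_right N (Nat.succ_le_of_lt htl)
            rw [Nat.succ_mul] at this
            omega
          simp [htl, htl.trans (Nat.lt_succ_self n), this]
        · have hge : ¬ (t * N + j - n * N < N) := by
            have := Nat.mul_le_mul_right N (show n + 1 ≤ t by omega)
            rw [Nat.add_mul, one_mul] at this
            omega
          simp [htl, show ¬ t < n + 1 by omega, hge]

/-- Two programs agree on the given vectors at all positions. -/
def agree (N : ℕ) (vs : List ℕ) (p q : Prog) : Bool :=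
  fits N p && fits N q && vs.all fun v => run N p (start N v 52) == run N q (start N v 52)

theorem agree_spec {N : ℕ} {vs : List ℕ} {p q : Prog} (h : agree N vs p q = true) {j : ℕ}
    (hj : j < N) {v : ℕ} (hv : v ∈ vs) (hv' : v < 2 ^ 52) : apW (sel p j) v = apW (sel q j) v := by
  simp only [agree, Bool.and_eq_true, List.all_eq_true, beq_iff_eq] at h
  obtain ⟨⟨hp, hq⟩, hall⟩ := h
  have h1 := slice_run hj p hp (slice_start (v := v) hj)
  have h2 := slice_run hj q hq (slice_start (v := v) hj)
  rw [hall v hv] at h1
  refine Nat.eq_of_testBit_eq fun t => ?_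
  by_cases ht : t < 52
  · rw [← h1 t ht, ← h2 t ht]
  · have hle : 2 ^ 52 ≤ 2 ^ t := Nat.pow_le_pow_right two_pos (not_lt.1 ht)
    rw [Nat.testBit_lt_two_pow ((apW_lt hv').trans_le hle), Nat.testBit_lt_two_pow ((apW_lt hv').trans_le hle)]

end CfsgLib.TitsCover
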