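import Cfsg.Agent.TitsInvolutions.Words
import Cfsg.Agent.TitsCover.Model
import Cfsg.Agent.TitsCover.DataU

/-!
The programs of the certificate: the nodes of a word and the products of two conjugates.
-/

set_option autoImplicit false

namespace CfsgLib.TitsCover

open CfsgLib.TitsInvolutions

/-- The element of order three. -/
def xW : List ℕ := [33, 24, 14, 23]

/-- The two fundamental flips. -/
def flipW (i : Fin 2) : List ℕ :=
  if i = 0 then [27, 20, 27, 25, 22, 25, 27, 20, 27, 25, 22, 25] else [33, 14, 33, 24, 23, 24]

/-- The flip of a word. -/
def nnW (L : List (Fin 2)) : List ℕ := L.flatMap flipW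

/-- The number of positions. -/
def size : ℕ := 2048

/-- All positions. -/
def full : ℕ := 2 ^ size - 1

/-- The vectors separating the elements. -/
def sepV : List ℕ := [2 ^ 48, 2 ^ 51, 17, 32785]

/-- The nodes of a word. -/
def nodeP (L : List (Fin 2)) : Prog := progU ++ [(nnW L, full)]

/-- A conjugate of the chosen element. -/
def conjP (A : Prog) : Prog := A ++ [(xW, full)] ++ inv A

/-- A product of two conjugates. -/
def pairP (A B : Prog) : Prog := conjP A ++ conjP B

/-- Apply the permutations of a word to a root. -/
def fmL (L : List (Fin 2)) (r : ℕ) : ℕ := L.foldr (fun i s => fmap i s) r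

/-- The short root-group words used in the conjugators. -/
def gensW : List (List ℕ) :=
  ((blocks seq8).flatMap fun b => b.map Prod.fst) ++
    ((blocks seq8).flatMap fun b => b.map fun x => x.1.map (fmL [1, 0, 1, 0, 1, 0, 1, 0]))

/-- A program in these words. -/
def inGens (A : Prog) : Bool := A.all fun e => gensW.contains e.1

/-- The certificate for a word. -/
def certified (L : List (Fin 2)) (A B : Prog) : Bool :=
  agree size sepV (nodeP L) (pairP A B) && inGens A && inGens B

theorem agree_cons {N v : ℕ} {vs : List ℕ} {p q : Prog} (h1 : agree N [v] p q = true)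
    (h2 : agree N vs p q = true) : agree N (v :: vs) p q = true := by
  simp only [agree, Bool.and_eq_true, List.all_cons, List.all_nil, and_true] at *
  exact ⟨h1.1, h1.2, h2.2⟩

theorem certified_of {L : List (Fin 2)} {A B : Prog}
    (h0 : agree size [2 ^ 48] (nodeP L) (pairP A B) = true)
    (h1 : agree size [2 ^ 51] (nodeP L) (pairP A B) = true)
    (h2 : agree size [17] (nodeP L) (pairP A B) = true)
    (h3 : agree size [32785] (nodeP L) (pairP A B) = true)
    (hg : (inGens A && inGens B) = true) : certified L A B = true := by
  rw [certified, Bool.and_assoc, hg, Bool.and_true]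
  exact agree_cons h0 (agree_cons h1 (agree_cons h2 h3))

end CfsgLib.TitsCover
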