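import Cfsg.Agent.F4Cover.Cells
import Cfsg.Agent.TitsTwoTrans.Main
import Cfsg.Agent.TitsCover.Basic

/-!
The programs describe elements of `²F₄(2)`, and three vectors tell the elements of this group apart.
-/

set_option autoImplicit false
set_option maxRecDepth 2000

namespace CfsgLib.TitsCover

open Cfsg.Lie CfsgLib.Chevalley CfsgLib.TwistedLie CfsgLib.TwistedLie.F4 CfsgLib.TitsInvolutions
open CfsgLib.TitsTwoTrans (U2 exists_word diag_trivial nn_sq)
open scoped Matrix

local notation "S" => sysF4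
local notation "K" => ZMod 2

theorem low_of_good {w : List ℕ} (h : Good w) : Low w := fun r hr => (h r hr).2

theorem sel_low {p : Prog} (h : ∀ e ∈ p, Low e.1) (j : ℕ) : Low (sel p j) := by
  intro r hr
  simp only [sel, List.mem_flatMap] at hr
  obtain ⟨e, he, hr⟩ := hr
  split at hr
  · exact h e he r hr
  · simp at hr

theorem conj_el_low (i : Fin 2) {w : List ℕ} (hw : Low w) :
    (nn i)⁻¹ * el K w * nn i = el K (w.map (fmap i)) := by
  induction w with
  | nil => simp [el_nil]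
  | cons r w ih =>
    obtain ⟨h1, h2⟩ := fmap_spec i r (hw r (List.mem_cons_self ..))
    have h := nL_conj_one (blkN_lt i) h1 (1 : K)
    change nn i * Sys.xG S K (fmap i r) 1 * (nn i)⁻¹ = Sys.xG S K (fmap i (fmap i r)) 1 at h
    rw [h2] at h
    rw [List.map_cons, el_cons, el_cons, ← ih fun x hx => hw x (List.mem_cons_of_mem _ hx), ← h]
    group

theorem fmL_mem : ∀ (L : List (Fin 2)) {w : List ℕ}, Low w → el K w ∈ G →
    Low (w.map (fmL L)) ∧ el K (w.map (fmL L)) ∈ G
  | [], w, h, hG => by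
    rw [show fmL [] = id from rfl, List.map_id]
    exact ⟨h, hG⟩
  | i :: L, w, h, hG => by
    obtain ⟨h1, h2⟩ := fmL_mem L h hG
    have e : w.map (fmL (i :: L)) = (w.map (fmL L)).map (fmap i) := by
      simp [fmL, List.map_map, Function.comp_def]
    rw [e]
    refine ⟨fun r hr => ?_, ?_⟩
    · obtain ⟨s, hs, rfl⟩ := List.mem_map.1 hr
      exact (fmap_spec i s (h1 s hs)).1
    · rw [← conj_el_low i h1]
      exact mul_mem (mul_mem (inv_mem (nn_mem i)) h2) (nn_mem i)

theorem gens_mem {w : List ℕ} (hw : w ∈ gensW) : Low w ∧ el K w ∈ G := by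
  rcases List.mem_append.1 hw with h | h
  · obtain ⟨b, hb, h⟩ := List.mem_flatMap.1 h
    obtain ⟨x, hx, rfl⟩ := List.mem_map.1 h
    exact ⟨low_of_good (blocks_good b hb x hx), TitsTwoTrans.block_mem hb hx⟩
  · obtain ⟨b, hb, h⟩ := List.mem_flatMap.1 h
    obtain ⟨x, hx, rfl⟩ := List.mem_map.1 h
    exact fmL_mem _ (low_of_good (blocks_good b hb x hx)) (TitsTwoTrans.block_mem hb hx)

theorem xW_mem : Low xW ∧ el K xW ∈ G := by
  obtain ⟨h1, h2⟩ := gens_mem (w := [33, 24]) (by decide +kernel)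
  obtain ⟨h3, h4⟩ := gens_mem (w := [14, 23]) (by decide +kernel)
  exact ⟨by decide +kernel, (el_append K [33, 24] [14, 23]).symm ▸ mul_mem h2 h4⟩

theorem gens_prog {A : Prog} (h : inGens A = true) : ∀ e ∈ A, Low e.1 ∧ el K e.1 ∈ G := fun e he =>
  gens_mem (by simpa [List.contains_iff_mem] using List.all_eq_true.1 h e he)

theorem sel_mem {A : Prog} (h : ∀ e ∈ A, el K e.1 ∈ G) (j : ℕ) : el K (sel A j) ∈ G := by
  induction A with
  | nil => exact (el_nil K).symm ▸ one_mem _
  | cons e A ih =>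
    rw [show sel (e :: A) j = (if e.2.testBit j then e.1 else []) ++ sel A j from List.flatMap_cons ..,
      el_append]
    refine mul_mem ?_ (ih fun x hx => h x (List.mem_cons_of_mem _ hx))
    split
    · exact h e (List.mem_cons_self ..)
    · exact (el_nil K).symm ▸ one_mem _

theorem sel_const (w : List ℕ) {j : ℕ} (hj : j < size) : sel [(w, full)] j = w := by
  have h : full.testBit j = true := by
    rw [full, Nat.testBit_two_pow_sub_one]
    simp [hj]
  simp [sel, h]

/-! ### The flips -/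

theorem nL_words {D : ChevalleyDatum} (R : Sys D) (F : Type*) [Field F] [CharP F 2] (L : List ℕ) :
    nL R F L = R.wG F ((L.flatMap fun a => [D.simple a, D.neg (D.simple a), D.simple a]).map
      fun r => (r, (1 : F))) := by
  induction L with
  | nil => simp [nL, Sys.wG]
  | cons a L ih =>
    rw [nL_cons, ih, List.flatMap_cons, List.map_append, wG_append]
    simp [Sys.nG, ChevalleyDatum.nWord, CharTwo.neg_eq]

theorem el_flatMap_nWord (L : List ℕ) : nL S K L =
    el K (L.flatMap fun a => [chevF4.simple a, chevF4.neg (chevF4.simple a), chevF4.simple a]) :=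
  nL_words S K L

theorem nn_el (i : Fin 2) : nn i = el K (flipW i) := by
  have h : ∀ k : Fin 2, flipW k =
      (blkN k).flatMap fun a => [chevF4.simple a, chevF4.neg (chevF4.simple a), chevF4.simple a] := by
    decide +kernel
  rw [h i, nn, el_flatMap_nWord]

theorem nnW_el (L : List (Fin 2)) : F4Cover.nn card_field L = el K (nnW L) := by
  induction L with
  | nil => rw [F4Cover.nn_nil, nnW, List.flatMap_nil, el_nil]
  | cons i L ih =>
    rw [F4Cover.nn_cons, ih, F4Cover.nn_single, show nnW (i :: L) = flipW i ++ nnW L from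
      List.flatMap_cons .., el_append, ← nn_el, ← nn_eq]
    rfl

theorem nnW_low (L : List (Fin 2)) : Low (nnW L) := by
  intro r hr
  obtain ⟨i, -, hr⟩ := List.mem_flatMap.1 hr
  exact (by decide +kernel : ∀ i : Fin 2, ∀ r ∈ flipW i, r < 48) i r hr

/-! ### Separation -/

theorem fixed_check : ([2 ^ 48, 2 ^ 51].all fun v => (blocks seq8).all fun b =>
    b.all fun x => apW x.1 v == v) = true := by decide +kernel

theorem allW_fix {v : ℕ} : ∀ (bs : List (List (List ℕ × Bool))),
    (∀ b ∈ bs, ∀ x ∈ b, apW x.1 v = v) → ∀ x ∈ allW bs, apW x.1 v = v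
  | [], _, x, hx => by
    rw [allW, List.mem_singleton] at hx
    subst hx
    rfl
  | b :: bs, h, x, hx => by
    simp only [allW, List.mem_flatMap, List.mem_map] at hx
    obtain ⟨x₀, hx₀, z, hz, rfl⟩ := hx
    show apW (x₀.1 ++ z.1) v = v
    rw [apW_append, allW_fix bs (fun c hc => h c (List.mem_cons_of_mem _ hc)) z hz,
      h b (List.mem_cons_self ..) x₀ hx₀]

theorem U_fix {u : GL chevF4.Idx K} (hu : u ∈ U2) {v : ℕ} (hv : v ∈ [2 ^ 48, 2 ^ 51]) :
    (u : Matrix chevF4.Idx chevF4.Idx K) *ᵥ vecOf K v = vecOf K v := by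
  obtain ⟨w, hw, rfl⟩ := exists_word hu
  have hv' : v < 2 ^ 52 := (by decide +kernel : ∀ v ∈ [2 ^ 48, 2 ^ 51], v < 2 ^ 52) v hv
  have hc := fixed_check
  simp only [List.all_eq_true, beq_iff_eq] at hc
  rw [mulVec_apW K (low_of_good (allW_good blocks_good w hw)) hv', allW_fix _ (hc v hv) w hw]

theorem moved : (F4Cover.words.all fun L => L == [] || L == [0] ||
    apW (nnW L) (2 ^ 48) != 2 ^ 48 || apW (nnW L) (2 ^ 51) != 2 ^ 51) = true := by decide +kernel

theorem flip_moves : ((W 0).all fun x =>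
    !(fwd (blocks seq8) 32785).contains (apW (nnW [0]).reverse (apW x.1.reverse 32785))) = true := by
  decide +kernel

theorem flip_split {c : GL chevF4.Idx K} (hc : c ∈ U2) {n : GL chevF4.Idx K} (hn : n = nn 0)
    {c' : GL chevF4.Idx K} (hc' : c' ∈ U2) :
    ∃ y ∈ W 0, ∃ z ∈ allW (blocks seq8), c * n * c' = el K y.1 * n * el K z.1 := by
  obtain ⟨a, ha, x, hx, ec, han⟩ := Tw.U_split (tw card_field) 0 (inv_mem hc)
  have e0 : (Sys.wN S K ((tw card_field).blk 0) : GL chevF4.Idx K) = n := hn ▸ nn_eq 0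
  rw [e0] at han
  have hnn : n * n = 1 := hn ▸ nn_sq 0
  have hinv : n⁻¹ = n := inv_eq_of_mul_eq_one_right hnn
  clear hn e0
  obtain ⟨y, hy, ey⟩ := mem_W (inv_mem hx)
  have han' : n * a⁻¹ * n ∈ U2 := by
    have h1 : (n * a * n⁻¹)⁻¹ ∈ U2 := inv_mem han
    have h2 : (n * a * n⁻¹)⁻¹ = n * a⁻¹ * n⁻¹ := by group
    rw [h2, hinv] at h1
    exact h1
  obtain ⟨z, hz, ez⟩ := exists_word (mul_mem han' hc')
  refine ⟨y, hy, z, hz, ?_⟩
  rw [← ey, ← ez, show c = (a * x)⁻¹ from by rw [← ec, inv_inv]]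
  calc (a * x)⁻¹ * n * c' = x⁻¹ * (1 * (a⁻¹ * n * c')) := by group
    _ = x⁻¹ * n * (n * a⁻¹ * n * c') := by rw [← hnn]; group

theorem no_fix_flip {c c' : GL chevF4.Idx K} (hc : c ∈ U2) (hc' : c' ∈ U2)
    (h : ((c * F4Cover.nn card_field [0] * c' : GL chevF4.Idx K) : Matrix chevF4.Idx chevF4.Idx K) *ᵥ
      vecOf K 32785 = vecOf K 32785) : False := by
  have hn : F4Cover.nn card_field [0] = nn 0 := (F4Cover.nn_single card_field 0).trans (nn_eq 0)
  obtain ⟨y, hy, z, hz, e⟩ := flip_split hc hn hc'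
  have hy' : Low y.1 := (by decide +kernel : ∀ y ∈ W 0, ∀ r ∈ y.1, r < 48) y hy
  have hw0 : Low (y.1 ++ nnW [0]) := fun r hr => by
    rcases List.mem_append.1 hr with hr | hr
    exacts [hy' r hr, nnW_low _ r hr]
  have hz' := allW_good blocks_good z hz
  have hlow' : Low (y.1 ++ nnW [0]).reverse := fun r hr => hw0 r (List.mem_reverse.1 hr)
  have hv : (32785 : ℕ) < 2 ^ 52 := by decide +kernel
  rw [e, nnW_el, ← el_append, Units.val_mul, ← Matrix.mulVec_mulVec, mulVec_el K hz' hv] at h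
  have h2 := congrArg
    ((el K (y.1 ++ nnW [0]).reverse : GL chevF4.Idx K) : Matrix chevF4.Idx chevF4.Idx K).mulVec h
  rw [mulVec_apW K hlow' hv, Matrix.mulVec_mulVec, ← Units.val_mul, el_reverse, inv_mul_cancel,
    Units.val_one, Matrix.one_mulVec] at h2
  have h3 := vecOf_inj K (appW_lt hz' hv) (apW_lt hv) h2
  have hk := flip_moves
  simp only [List.all_eq_true, Bool.not_eq_true', List.contains_eq_mem, decide_eq_false_iff_not]
    at hk
  refine hk y hy ?_
  rw [← apW_append, ← List.reverse_append, ← h3, fwd_eq]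
  exact List.mem_map.2 ⟨z, hz, rfl⟩

theorem eq_one_of_sep {g : GL chevF4.Idx K} (hg : g ∈ G)
    (h : ∀ v ∈ sepV, (g : Matrix chevF4.Idx chevF4.Idx K) *ᵥ vecOf K v = vecOf K v) : g = 1 := by
  have hB : ∀ b ∈ (tw card_field).B1, b ∈ U2 := by
    intro b hb
    obtain ⟨u, hu, t, ht, rfl⟩ := (Tw.mem_B1 (tw card_field)).mp hb
    obtain rfl := diag_trivial ((tw card_field).T_le ht)
    rw [mul_one]
    exact hu
  obtain ⟨b, hb, L, b', hb', e⟩ := Tw.cover (tw card_field) hg
  obtain ⟨d, hd⟩ := wW_range card_field L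
  obtain ⟨w, hw, hwd⟩ := F4Cover.dih_word d
  have hwW : (tw card_field).wW L = (tw card_field).wW w := by
    refine wperm_ext S fun j => Fin.ext ?_
    show ((tw card_field).wW L (Sys.simpleF S j) : ℕ) = ((tw card_field).wW w (Sys.simpleF S j) : ℕ)
    rw [← hd, Tw.wW_val (tw card_field) (hbl card_field)]
    show (dihPerm d (Sys.simpleF S j) : ℕ) = _
    have hj : Sys.simpleF S j = ⟨chevF4.simple j % 48, Nat.mod_lt _ (by decide)⟩ :=
      Fin.ext (Nat.mod_eq_of_lt (Sys.simpleF S j).isLt).symm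
    rw [hj, hwd j]
    exact congrArg _ (Nat.mod_eq_of_lt (Sys.simpleF S j).isLt).symm
  have hcell : F4Cover.Cell card_field w g :=
    F4Cover.Cell.congr card_field hwW ⟨b, hb, b', hb', e⟩
  clear e hb hb' hwW hd
  obtain ⟨c, hc, c', hc', rfl⟩ := hcell
  have hcU := hB c hc
  have hc'U := hB c' hc'
  have hfix : ∀ v ∈ [2 ^ 48, 2 ^ 51], apW (nnW w) v = v := by
    intro v hv
    have hv' : v < 2 ^ 52 := (by decide +kernel : ∀ v ∈ [2 ^ 48, 2 ^ 51], v < 2 ^ 52) v hv
    have h1 := h v ((by decide +kernel : ∀ v ∈ [2 ^ 48, 2 ^ 51], v ∈ sepV) v hv)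
    rw [Units.val_mul, Units.val_mul, ← Matrix.mulVec_mulVec, U_fix hc'U hv, ← Matrix.mulVec_mulVec,
      nnW_el, mulVec_apW K (nnW_low w) hv'] at h1
    have h2 := congrArg ((c⁻¹ : GL chevF4.Idx K) : Matrix chevF4.Idx chevF4.Idx K).mulVec h1
    rw [Matrix.mulVec_mulVec, ← Units.val_mul, inv_mul_cancel, Units.val_one, Matrix.one_mulVec,
      U_fix (inv_mem hcU) hv] at h2
    exact vecOf_inj K (apW_lt hv') hv' h2
  have h17 := h 17 (by decide +kernel)
  have hmid := h 32785 (by decide +kernel)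
  have hmv := moved
  simp only [List.all_eq_true, Bool.or_eq_true, beq_iff_eq, bne_iff_ne] at hmv
  rcases hmv w hw with ((rfl | rfl) | h') | h'
  · rw [F4Cover.nn_nil, mul_one] at h17 ⊢
    exact TitsTwoTrans.eq_one_of_fix (mul_mem hcU hc'U) h17
  · exact (no_fix_flip hcU hc'U hmid).elim
  · exact absurd (hfix _ (by decide +kernel)) h'
  · exact absurd (hfix _ (by decide +kernel)) h'

theorem el_eq_of_sep {a b : List ℕ} (ha : Low a) (hb : Low b) (hA : el K a ∈ G) (hB : el K b ∈ G)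
    (h : ∀ v ∈ sepV, apW a v = apW b v) : el K a = el K b := by
  rw [← inv_mul_eq_one]
  refine eq_one_of_sep (mul_mem (inv_mem hA) hB) fun v hv => ?_
  have hv' : v < 2 ^ 52 := (by decide +kernel : ∀ v ∈ sepV, v < 2 ^ 52) v hv
  rw [Units.val_mul, ← Matrix.mulVec_mulVec, mulVec_apW K hb hv', ← h v hv,
    ← mulVec_apW K ha hv', Matrix.mulVec_mulVec, ← Units.val_mul, inv_mul_cancel,
    Units.val_one, Matrix.one_mulVec]

end CfsgLib.TitsCover
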