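import Cfsg.Agent.D4Cover.Basic
import Cfsg.Agent.S1074
import Cfsg.Agent.TitsCover.Facts
import Cfsg.Agent.TitsCover.Check0
import Cfsg.Agent.TitsCover.Check1
import Cfsg.Agent.TitsCover.Check2
import Cfsg.Agent.TitsCover.Check3
import Cfsg.Agent.TitsCover.Check4
import Cfsg.Agent.TitsCover.Check5
import Cfsg.Agent.TitsCover.Check6
import Cfsg.Agent.TitsCover.Check7
import Cfsg.Agent.TitsCover.Check8

/-!
Every non-identity element of the Tits group is a product of two conjugates of one element of order three.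
-/

set_option autoImplicit false
set_option maxRecDepth 2000

namespace CfsgLib.TitsCover

open Cfsg.Lie CfsgLib.Chevalley CfsgLib.TwistedLie CfsgLib.TwistedLie.F4 CfsgLib.TitsInvolutions
open CfsgLib.TitsTwoTrans (U2 exists_word diag_trivial conj_nn_mem)
open CfsgLib.D4Cover (Covered)

local notation "K" => ZMod 2

/-- The Tits group inside the matrices. -/
noncomputable def TT : Subgroup (GL chevF4.Idx K) := (commutator ↥G).map G.subtype

theorem TT_le : TT ≤ G := Subgroup.map_subtype_le _

theorem mem_TT_iff {g : GL chevF4.Idx K} (hg : g ∈ G) : g ∈ TT ↔ ab g = 1 := by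
  constructor
  · rintro ⟨⟨y, hy'⟩, hy, rfl⟩
    rw [SetLike.mem_coe, ← Abelianization.ker_of, MonoidHom.mem_ker] at hy
    simpa [ab, hy'] using hy
  · intro h
    refine ⟨⟨g, hg⟩, ?_, rfl⟩
    rw [SetLike.mem_coe, ← Abelianization.ker_of, MonoidHom.mem_ker]
    simpa [ab, hg] using h

theorem nn_TT (L : List (Fin 2)) : F4Cover.nn card_field L ∈ TT := by
  induction L with
  | nil => rw [F4Cover.nn_nil]; exact one_mem _
  | cons i L ih =>
    rw [F4Cover.nn_cons, F4Cover.nn_single]
    refine mul_mem ?_ ih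
    have h := conj_nn_mem i (one_mem G)
    simp only [one_mul, inv_one, mul_one] at h
    rw [show (Sys.wN sysF4 K ((tw card_field).blk i) : GL chevF4.Idx K) = nn i from nn_eq i]
    exact h

theorem U2_ab {u : GL chevF4.Idx K} {w : List ℕ × Bool} (hw : w ∈ allW (blocks seq8))
    (e : u = el K w.1) : ab u = pw w.2 :=
  e ▸ (TitsTwoTrans.word_facts (List.suffix_refl _) w hw).2

theorem ab_cases {g : GL chevF4.Idx K} (hg : g ∈ G) : ab g = 1 ∨ ab g = aa := by
  obtain ⟨k, hk, u, hu, rfl⟩ := TitsTwoTrans.decompose hg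
  have hkT : k ∈ TT := by
    refine (Subgroup.closure_le _).mpr ?_ hk
    rintro x (hx | ⟨v, hv, i, rfl⟩)
    · exact hx.2
    · exact conj_nn_mem i hv.2
  obtain ⟨w, hw, e⟩ := exists_word hu
  rw [ab_mul (TT_le hkT) hu.2, (mem_TT_iff (TT_le hkT)).mp hkT, one_mul, U2_ab hw e]
  cases w.2 <;> simp [pw]

theorem aa_ne : aa ≠ 1 := by
  intro h
  have h2 := Cfsg.Agent.S1074.result.1
  have htop : commutator ↥G = ⊤ := by
    refine eq_top_iff.mpr fun y _ => ?_
    obtain ⟨g, hg⟩ := y
    have h1 : ab g = 1 := (ab_cases hg).elim id fun e => e.trans h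
    rw [← Abelianization.ker_of, MonoidHom.mem_ker]
    simpa [ab, hg] using h1
  have : (commutator ↥G).index = 2 := h2
  rw [htop, Subgroup.index_top] at this
  exact absurd this (by norm_num)

theorem evenU : ((((allW (blocks seq8)).filter fun x => !x.2).map Prod.fst) ==
    (List.range size).map (sel progU)) = true := by decide +kernel

theorem progU_low : ∀ e ∈ progU, Low e.1 := by decide +kernel

theorem x_cube : el K (xW ++ (xW ++ xW)) = el K [] := by
  obtain ⟨h1, h2⟩ := xW_mem
  refine el_eq_of_sep (by decide +kernel) (by decide +kernel) ?_ ((el_nil K).symm ▸ one_mem _) ?_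
  · rw [el_append, el_append]; exact mul_mem h2 (mul_mem h2 h2)
  · exact (by decide +kernel : ∀ v ∈ sepV, apW (xW ++ (xW ++ xW)) v = apW [] v)

theorem x_TT : el K xW ∈ TT := by
  obtain ⟨-, h2⟩ := xW_mem
  refine (mem_TT_iff h2).mpr ?_
  have hp : el K [33, 24] ∈ G := W_mem_G 1 ([33, 24], false) (by simp [W])
  have hq : [14, 23] = ([33, 24] : List ℕ).map (fmap 1) := by decide +kernel
  have hgood : Good [33, 24] := by decide +kernel
  rw [show xW = [33, 24] ++ [14, 23] from rfl, el_append, hq,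
    ab_mul hp (el_mem_map hgood hp), ab_map hgood hp, ab_pair, one_mul]

theorem x_odd : Odd (orderOf (el K xW)) := by
  refine Odd.of_dvd_nat (show Odd 3 by decide) (orderOf_dvd_of_pow_eq_one ?_)
  have := x_cube
  rw [el_append, el_append, el_nil] at this
  rw [pow_succ', _root_.pow_two]
  exact this

/-- An element of the larger group outside the Tits group commuting with the chosen element. -/
def cW : List ℕ := [36, 42, 44, 47, 39, 45, 35, 31, 46, 37, 32, 28, 30]

theorem cW_facts : el K cW ∈ G ∧ ab (el K cW) = aa ∧ el K cW * el K xW = el K xW * el K cW := by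
  have hm : (cW, true) ∈ allW (blocks seq8) := by decide +kernel
  obtain ⟨h1, h2⟩ := TitsTwoTrans.word_facts (List.suffix_refl _) _ hm
  refine ⟨h1, h2, ?_⟩
  obtain ⟨hx1, hx2⟩ := xW_mem
  rw [← el_append, ← el_append]
  refine el_eq_of_sep (by decide +kernel) (by decide +kernel) ?_ ?_ ?_
  · rw [el_append]; exact mul_mem h1 hx2
  · rw [el_append]; exact mul_mem hx2 h1
  · exact (by decide +kernel : ∀ v ∈ sepV, apW (cW ++ xW) v = apW (xW ++ cW) v)

theorem conj_TT {a : GL chevF4.Idx K} (ha : a ∈ G) :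
    ∃ a' ∈ TT, a' * el K xW * a'⁻¹ = a * el K xW * a⁻¹ := by
  obtain ⟨hc, hcab, hcomm⟩ := cW_facts
  rcases ab_cases ha with h | h
  · exact ⟨a, (mem_TT_iff ha).mpr h, rfl⟩
  · refine ⟨a * el K cW, (mem_TT_iff (mul_mem ha hc)).mpr ?_, ?_⟩
    · rw [ab_mul ha hc, h, hcab, aa_sq]
    · calc a * el K cW * el K xW * (a * el K cW)⁻¹
          = a * (el K cW * el K xW) * (el K cW)⁻¹ * a⁻¹ := by group
        _ = _ := by rw [hcomm]; group

theorem conjP_sel {A : Prog} {j : ℕ} (hj : j < size) :
    el K (sel (conjP A) j) = el K (sel A j) * el K xW * (el K (sel A j))⁻¹ := by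
  rw [conjP, sel_append, sel_append, sel_const _ hj, sel_inv, el_append, el_append, el_reverse]

theorem node_covered {L : List (Fin 2)} {A B : Prog} (h : certified L A B = true) {j : ℕ}
    (hj : j < size) (hu : el K (sel progU j) ∈ G) :
    Covered TT (el K xW) (el K (sel progU j) * F4Cover.nn card_field L) := by
  simp only [certified, Bool.and_eq_true] at h
  obtain ⟨⟨hag, hA⟩, hB⟩ := h
  have hA' := gens_prog hA
  have hB' := gens_prog hB
  have hAG := sel_mem (fun e he => (hA' e he).2) j
  have hBG := sel_mem (fun e he => (hB' e he).2) j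
  obtain ⟨hx1, hx2⟩ := xW_mem
  have hl : Low (sel (nodeP L) j) := by
    refine sel_low (fun e he => ?_) j
    rcases List.mem_append.1 he with he | he
    · exact progU_low e he
    · rw [List.mem_singleton] at he; subst he; exact nnW_low L
  have hlow : ∀ {C : Prog}, (∀ e ∈ C, Low e.1) → Low (sel (conjP C) j) := by
    intro C hC
    refine sel_low (fun e he => ?_) j
    simp only [conjP, inv, List.mem_append, List.mem_singleton, List.mem_map, List.mem_reverse] at he
    rcases he with (he | rfl) | ⟨d, hd, rfl⟩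
    · exact hC e he
    · exact hx1
    · exact fun r hr => hC d hd r (List.mem_reverse.1 hr)
  have hr : Low (sel (pairP A B) j) := by
    rw [pairP, sel_append]
    intro r hr
    rcases List.mem_append.1 hr with hr | hr
    exacts [hlow (fun e he => (hA' e he).1) r hr, hlow (fun e he => (hB' e he).1) r hr]
  have eL : el K (sel (nodeP L) j) = el K (sel progU j) * F4Cover.nn card_field L := by
    rw [nodeP, sel_append, sel_const _ hj, el_append, nnW_el]
  have eR : el K (sel (pairP A B) j) = el K (sel A j) * el K xW * (el K (sel A j))⁻¹ *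
      (el K (sel B j) * el K xW * (el K (sel B j))⁻¹) := by
    rw [pairP, sel_append, el_append, conjP_sel hj, conjP_sel hj]
  have e := el_eq_of_sep hl hr (eL ▸ mul_mem hu (TT_le (nn_TT L)))
    (eR ▸ mul_mem (mul_mem (mul_mem hAG hx2) (inv_mem hAG))
      (mul_mem (mul_mem hBG hx2) (inv_mem hBG)))
    (fun v hv => agree_spec hag hj hv
      ((by decide +kernel : ∀ v ∈ sepV, v < 2 ^ 52) v hv))
  rw [eL, eR] at e
  obtain ⟨a, ha, ea⟩ := conj_TT hAG
  obtain ⟨b, hb, eb⟩ := conj_TT hBG
  exact ⟨a, ha, b, hb, by rw [e, ea, eb]⟩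

theorem fine_split : ∀ L ∈ F4Cover.words, F4Cover.Fine L →
    L ∈ ([[0, 1], [1, 0], [0, 1, 0], [0, 1, 0, 1], [1, 0, 1, 0], [0, 1, 0, 1, 0],
      [0, 1, 0, 1, 0, 1], [1, 0, 1, 0, 1, 0], [1, 0, 1, 0, 1, 0, 1, 0]] : List (List (Fin 2))) := by
  decide +kernel

theorem node_all {L : List (Fin 2)} (hL : F4Cover.Fine L) {j : ℕ} (hj : j < size)
    (hu : el K (sel progU j) ∈ G) :
    Covered TT (el K xW) (el K (sel progU j) * F4Cover.nn card_field L) := by
  have h := fine_split L hL.2 hL
  simp only [List.mem_cons, List.not_mem_nil, or_false] at h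
  rcases h with rfl | rfl | rfl | rfl | rfl | rfl | rfl | rfl | rfl
  exacts [node_covered check0 hj hu, node_covered check1 hj hu, node_covered check2 hj hu,
    node_covered check3 hj hu, node_covered check4 hj hu, node_covered check5 hj hu,
    node_covered check6 hj hu, node_covered check7 hj hu, node_covered check8 hj hu]

theorem covered_conj {h g : GL chevF4.Idx K} (hh : h ∈ G)
    (hc : Covered TT (el K xW) (h * g * h⁻¹)) : Covered TT (el K xW) g := by
  obtain ⟨u, hu, v, hv, e⟩ := hc
  obtain ⟨a, ha, ea⟩ := conj_TT (mul_mem (inv_mem hh) (TT_le hu))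
  obtain ⟨b, hb, eb⟩ := conj_TT (mul_mem (inv_mem hh) (TT_le hv))
  refine ⟨a, ha, b, hb, ?_⟩
  rw [ea, eb]
  calc g = h⁻¹ * (h * g * h⁻¹) * h := by group
    _ = _ := by rw [e]; group

theorem TT_conj {k g : GL chevF4.Idx K} (hk : k ∈ G) (hg : g ∈ TT) : k * g * k⁻¹ ∈ TT := by
  obtain ⟨t, ht, rfl⟩ := hg
  have hn : (commutator ↥G).Normal := Subgroup.commutator_normal _ _
  unfold TT
  generalize hX : commutator ↥G = X at ht hn ⊢
  let y : ↥G := ⟨k, hk⟩
  have hc : y * t * y⁻¹ ∈ X := hn.conj_mem t (SetLike.mem_coe.mp ht) y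
  exact ⟨y * t * y⁻¹, SetLike.mem_coe.mpr hc, rfl⟩

/-- The main statement. -/
theorem covered_all {g : GL chevF4.Idx K} (hg : g ∈ TT) (hne : g ≠ 1) : Covered TT (el K xW) g := by
  obtain ⟨h, hh, L, hL, c, hc, c', hc', e⟩ := F4Cover.exists_fine card_field (TT_le hg) hne
  have hB : ∀ b ∈ (tw card_field).B1, b ∈ U2 := by
    intro b hb
    obtain ⟨u, hu, t, ht, rfl⟩ := (Tw.mem_B1 (tw card_field)).mp hb
    obtain rfl := diag_trivial ((tw card_field).T_le ht)
    rw [mul_one]
    exact hu
  have hu := mul_mem (hB c' hc') (hB c hc)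
  obtain ⟨w, hw, eu⟩ := exists_word hu
  have hkG : c' * h ∈ G := mul_mem (hB c' hc').2 hh
  refine covered_conj hkG ?_
  have en : c' * h * g * (c' * h)⁻¹ = c' * c * F4Cover.nn card_field L := by
    calc c' * h * g * (c' * h)⁻¹ = c' * (h * g * h⁻¹) * c'⁻¹ := by group
      _ = _ := by rw [e]; group
  have hnode : c' * c * F4Cover.nn card_field L ∈ TT := by
    rw [← en]
    exact TT_conj hkG hg
  have hflag : w.2 = false := by
    have h1 := (mem_TT_iff (TT_le hnode)).mp hnode
    rw [ab_mul hu.2 (TT_le (nn_TT L)), (mem_TT_iff (TT_le (nn_TT L))).mp (nn_TT L), mul_one,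
      U2_ab hw eu] at h1
    cases h2 : w.2
    · rfl
    · exact absurd (by simpa [pw, h2] using h1) aa_ne
  have hmem : w.1 ∈ (List.range size).map (sel progU) := by
    rw [← eq_of_beq evenU]
    exact List.mem_map.2 ⟨w, List.mem_filter.2 ⟨hw, by simp [hflag]⟩, rfl⟩
  obtain ⟨j, hj, ej⟩ := List.mem_map.1 hmem
  have hGj : el K (sel progU j) ∈ G := by rw [ej, ← eu]; exact hu.2
  rw [en, eu, ← ej]
  exact node_all hL (List.mem_range.1 hj) hGj

end CfsgLib.TitsCover
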